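import Mathlib

/-!
# The numerical search: boolean tests and their soundness
-/

set_option autoImplicit false

namespace Cfsg.Agent.Z6.Num

def prs : List ℕ := [353, 307, 241, 239, 233, 227, 223, 193, 181, 179, 167, 157, 151, 137, 127, 113, 109, 107, 103,
  101, 97, 89, 83, 73, 71, 67, 61, 59, 47, 43, 41, 37, 31, 29, 23, 19, 17, 13, 11, 7]

theorem prs_prime : ∀ p ∈ prs, p.Prime ∧ 7 ≤ p := by norm_num [prs]

def Adm (m ν d N n c : ℕ) : Prop := ∃ j, n * c = ν * (4 * j) ∧ 2 * d + 4 ≤ 12 * j ∧ 12 * j ≤ 4 * d + 2 ∧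
  2 * d * d + 32 * j * j + 2 * d + 2 ≤ c + 16 * d * j + 8 * j ∧ c ∣ N ∧ 2 * m ∣ c

def admB (m ν d N n c j : ℕ) : Bool := n * c == ν * (4 * j) && Nat.ble (2 * d + 4) (12 * j) &&
  Nat.ble (12 * j) (4 * d + 2) && Nat.ble (2 * d * d + 32 * j * j + 2 * d + 2) (c + 16 * d * j + 8 * j) &&
  N % c == 0 && c % (2 * m) == 0

def lst (m ν d N n : ℕ) : List ℕ :=
  ((List.range (d / 3 + 1)).filter fun j => admB m ν d N n (ν * (4 * j) / n) j).map fun j => ν * (4 * j) / n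

theorem mem_lst {m ν d N n c : ℕ} (h : Adm m ν d N n c) (hn : 0 < n) : c ∈ lst m ν d N n := by
  obtain ⟨j, h1, h2, h3, h4, h5, h6⟩ := h
  have e : ν * (4 * j) / n = c := by rw [← h1, Nat.mul_div_cancel_left _ hn]
  refine List.mem_map.2 ⟨j, List.mem_filter.2 ⟨List.mem_range.2 (by omega), ?_⟩, e⟩
  simp only [admB, e, Bool.and_eq_true, beq_iff_eq, Nat.ble_eq]
  exact ⟨⟨⟨⟨⟨h1, h2⟩, h3⟩, h4⟩, Nat.mod_eq_zero_of_dvd h5⟩, Nat.mod_eq_zero_of_dvd h6⟩

def Surv (ν d N nm p : ℕ) : Prop := ∃ k e r, N = p * k * e * r ∧ r % p = 1 ∧ 6 * (p * k) ≤ 7 * d * ν * nm ∧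
  ¬ 2 ∣ k ∧ ¬ 3 ∣ k ∧ e ≠ 1 ∧ e ∣ p - 1 ∧ ∀ q ∈ prs, q ∣ k → q ∣ (if d % p = 0 then d + 1 else d) → q ∣ ν

def finB (ν d N nm : ℕ) (cs : List ℕ) : Bool := cs.all (fun c => N % (2 * c) == 0) || prs.any fun p =>
  N % p == 0 && N % (p * p) != 0 && cs.all (· % p != 0) && (List.range (7 * d * ν * nm / (6 * p) + 1)).all fun k =>
    N / p % k != 0 || k % 2 == 0 || k % 3 == 0 ||
    prs.any (fun q => k % q == 0 && (if d % p = 0 then d + 1 else d) % q == 0 && ν % q != 0) ||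
    (List.range p).all fun e => e == 1 || (p - 1) % e != 0 || N / p / k % e != 0 || N / p / k / e % p != 1

theorem finB_sound {ν d N nm : ℕ} {cs : List ℕ} (h : finB ν d N nm cs = true) : (∀ c ∈ cs, 2 * c ∣ N) ∨
    ∃ p ∈ prs, p ∣ N ∧ ¬ p * p ∣ N ∧ (∀ c ∈ cs, ¬ p ∣ c) ∧ ¬ Surv ν d N nm p := by
  simp only [finB, Bool.or_eq_true, Bool.and_eq_true, List.all_eq_true, List.any_eq_true, beq_iff_eq, bne_iff_ne,
    ne_eq, List.mem_range, ← Nat.dvd_iff_mod_eq_zero (n := N), ← Nat.dvd_iff_mod_eq_zero (m := 2),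
    ← Nat.dvd_iff_mod_eq_zero (m := 3)] at h
  refine h.imp_right fun ⟨p, hp, ⟨⟨h1, h2⟩, h3⟩, h4⟩ => ⟨p, hp, h1, h2, fun c hc e =>
    h3 c hc (Nat.mod_eq_zero_of_dvd e), fun ⟨k, e, r, a1, a2, a3, a4, a5, a6, a7, a8⟩ => ?_⟩
  have p7 := (prs_prime p hp).2
  have k0 : 0 < k := by omega
  have e0 : 0 < e := Nat.pos_of_dvd_of_pos a7 (by omega)
  have b1 : N / p = k * (e * r) := by rw [a1, mul_assoc, mul_assoc, Nat.mul_div_cancel_left _ (by omega)]
  have := h4 k (Nat.lt_succ_of_le ((Nat.le_div_iff_mul_le (by omega)).2 (by linarith)))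
  rw [b1, Nat.mul_div_cancel_left _ k0] at this
  rcases this with (((b | b) | b) | ⟨q, hq, ⟨b, b'⟩, b''⟩) | b
  · exact b (Nat.mul_mod_right _ _)
  · exact a4 b
  · exact a5 b
  · exact b'' (Nat.mod_eq_zero_of_dvd (a8 q hq (Nat.dvd_of_mod_eq_zero b) (Nat.dvd_of_mod_eq_zero b')))
  · have := b e (by have := Nat.le_of_dvd (by omega) a7; omega)
    rw [Nat.mul_div_cancel_left _ e0, Nat.mul_mod_right, Nat.mod_eq_zero_of_dvd a7] at this
    omega

def chk (m n c : ℕ) (f : ℕ → ℕ → ℕ → Bool) : Bool := (List.range (n * c / 4 + 1)).all fun j =>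
  n * c % (4 * j) != 0 || (List.range 121).all fun i =>
    (fun ν d => (fun N => !(admB m ν d N n c j) || N % 9 == 0 || N % 5 == 0 || f ν d N)
      (3 * ν ^ 2 * (d * (d + 1)) / m)) (n * c / (4 * j)) (4 * j + i - 60)

theorem chk_sound {m n c ν d N : ℕ} {f : ℕ → ℕ → ℕ → Bool} (h : chk m n c f = true) (ha : Adm m ν d N n c)
    (hc : c ≤ 7000) (h0 : 0 < ν) (hm : 0 < m) (hN : m * N = 3 * ν ^ 2 * (d * (d + 1))) (h9 : ¬ 9 ∣ N)
    (h5 : ¬ 5 ∣ N) : f ν d N = true := by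
  obtain ⟨j, h1, h2, h3, h4, h6, h7⟩ := ha
  simp only [chk, Bool.or_eq_true, List.all_eq_true, beq_iff_eq, bne_iff_ne, ne_eq, List.mem_range,
    Bool.not_eq_true'] at h
  have j0 : 0 < 4 * j := by omega
  have b1 : d + 60 ≤ 4 * j + 120 := by by_contra; zify at *; nlinarith [sq_nonneg ((d : ℤ) - 4 * j - 60)]
  have b2 : 4 * j ≤ d + 60 := by by_contra; zify at *; nlinarith [sq_nonneg ((d : ℤ) - 4 * j + 60)]
  have := (h j (Nat.lt_succ_of_le ((Nat.le_div_iff_mul_le (by omega)).2 (by nlinarith)))).resolve_left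
    (by rw [h1, Nat.mul_mod_left]; omega) (d + 60 - 4 * j) (by omega)
  rw [h1, Nat.mul_div_cancel _ j0, show 4 * j + (d + 60 - 4 * j) - 60 = d by omega, ← hN,
    Nat.mul_div_cancel_left _ hm] at this
  refine this.resolve_left ?_
  simp only [admB, h1, Nat.ble_eq_true_of_le h2, Nat.ble_eq_true_of_le h3, Nat.ble_eq_true_of_le h4, Nat.mod_eq_zero_of_dvd h6,
    Nat.mod_eq_zero_of_dvd h7]
  simp
  omega

def f2 (n c ν d N : ℕ) : Bool := N == 1092 || if n = 2 then finB ν d N 2 [c] else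
  (lst 2 ν d N 1).all fun c' => c' % 3 == 0 || finB ν d N 2 [c, c']

def vl (al : ℕ → Bool) (ν d N n : ℕ) : List ℕ := (lst 4 ν d N n).filter fun c => c % 72 == 24 && al c

def f4 (al : ℕ → Bool) (n ν d N : ℕ) : Bool :=
  ((vl al ν d N 1).isEmpty || (vl al ν d N 2).isEmpty || finB ν d N 1 (vl al ν d N 1 ++ vl al ν d N 2)) &&
  (n == 2 || (lst 4 ν d N 1).all fun c' => c' % 3 == 0 || finB ν d N 1 (c' :: vl al ν d N 1) ||
    [11, 43].any fun q => c' == 64 * q && (vl al ν d N 1).all (· % q != 0))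

theorem chk2 : ([12, 48, 192, 768, 3072, 336].all fun c => [1, 2].all fun n => chk 2 n c (f2 n c)) = true := by
  decide +kernel

theorem chk4s : ([24, 96, 384, 1536, 6144].all fun c => [1, 2].all fun n =>
    chk 4 n c (f4 (· ∈ [24, 96, 384, 1536, 6144]) n)) = true := by
  decide +kernel

theorem chk4n : ([672, 2688, 2184].all fun c => [1, 2].all fun n => chk 4 n c (f4 (fun _ => true) n)) = true := by
  decide +kernel

end Cfsg.Agent.Z6.Num
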